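import Mathlib
import Cfsg.Agent.Base
import Cfsg.Agent.Lib.QT.Rk1
import Cfsg.Prelude.Def_Classical

/-! Linear and unitary groups of dimension at least three: the diagonal subgroup. -/

set_option autoImplicit false

namespace H90.QT
open Subgroup Cfsg Matrix

theorem not_cyc_diag {H : Type*} [Group H] {n : ℕ} {F : Type*} [Field F]
    (φ : H →* Matrix (Fin n) (Fin n) F) (hφ : Function.Injective φ) {r : ℕ} [hr : Fact r.Prime]
    {ζ : Fˣ} (hζ : orderOf ζ = r) (hd : ∀ d : Fin n → Fˣ, (∀ i, d i ^ r = 1) → ∏ i, d i = 1 →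
      ∃ g, φ g = diagonal fun i => (d i : F))
    (hp : ∀ σ : Equiv.Perm (Fin n), σ.sign = 1 → ∃ g, φ g = σ.permMatrix F) (hn : 3 ≤ n) :
    ¬ Cyc r (H ⧸ center H) := fun hc => by
  have z1 : ζ ≠ 1 := fun e => hr.out.ne_one (by rw [← hζ, e, orderOf_one])
  have zr : ζ ^ r = 1 := hζ ▸ pow_orderOf_eq_one ζ
  have cen : ∀ {g : H} {d : Fin n → Fˣ}, (φ g = diagonal fun i => (d i : F)) → g ∈ center H →
      ∀ i j, d i = d j := fun {g d} hg hz i j => by
    have := alternatingGroup.isPretransitive_of_three_le_card (Fin n) (by simpa)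
    obtain ⟨σ, rfl⟩ := MulAction.exists_smul_eq (alternatingGroup (Fin n)) i j
    obtain ⟨x, hx⟩ := hp σ σ.2
    have h1 := congrFun (congrFun (congrArg φ (mem_center_iff.1 hz x)) i) (σ • i)
    rw [map_mul, map_mul, hg, hx, diagonal_mul, mul_diagonal] at h1
    simp only [Equiv.Perm.permMatrix, PEquiv.toMatrix_apply, Equiv.toPEquiv_apply,
      Option.mem_def, show (σ : Equiv.Perm (Fin n)) i = σ • i from rfl, if_true, one_mul,
      mul_one] at h1
    exact Units.ext h1.symm
  have pw : ∀ {g : H} {d : Fin n → Fˣ}, (φ g = diagonal fun i => (d i : F)) → (∀ i, d i ^ r = 1) →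
      g ^ r = 1 := fun {g d} hg h => hφ (by
    rw [map_pow, hg, diagonal_pow, map_one, ← diagonal_one]
    congr 1
    funext i
    simpa using congrArg Units.val (h i))
  by_cases h3 : n = 3 ∧ r = 3
  · obtain ⟨rfl, rfl⟩ := h3
    have z3 : (ζ : F) ^ 3 = 1 := by simpa using congrArg Units.val zr
    have a3 : ∀ i, ![1, ζ, ζ ^ 2] i ^ 3 = 1 := fun i => by
      fin_cases i <;> simp [zr, pow_right_comm ζ 2 3]
    obtain ⟨a, ha⟩ := hd ![1, ζ, ζ ^ 2] a3 (by
      rw [Fin.prod_univ_three]; simpa [pow_succ, mul_assoc] using zr)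
    obtain ⟨z, hz⟩ := hd (fun _ => ζ) (fun _ => zr) (by simpa using zr)
    obtain ⟨b, hb⟩ := hp (finRotate 3) (by decide)
    have hz' : z ∈ center H := mem_center_iff.2 fun x => hφ (by
      rw [map_mul, map_mul, hz]
      exact (scalar_commute (ζ : F) (fun _ => Commute.all _ _) _).symm)
    have e : b * a = a * b * z := hφ (by
      rw [map_mul, map_mul, map_mul, ha, hb, hz]
      ext i j
      simp only [diagonal_mul, mul_diagonal]
      fin_cases i <;> fin_cases j <;> simp [Equiv.Perm.permMatrix, PEquiv.toMatrix_apply, sq]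
      rw [← pow_three', z3])
    have nc : ¬ Commute a b := fun h => z1 (by
      rw [← h.eq, left_eq_mul] at e
      rw [e, map_one] at hz
      simpa using (congrFun (congrFun hz 0) 0).symm)
    obtain ⟨k, hk⟩ := hc.mem_center (a := a) (b := b)
      (by rw [pw ha a3]; exact one_mem _)
      (by
        rw [show b ^ 3 = 1 from hφ (by
          rw [map_pow, hb, map_one]
          ext i j
          fin_cases i <;> fin_cases j <;>
            simp [pow_three, mul_apply, Fin.sum_univ_three, Equiv.Perm.permMatrix,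
              PEquiv.toMatrix_apply])]
        exact one_mem _)
      (by rwa [e, inv_mul_cancel_left]) fun h => nc (mem_center_iff.1 h b).symm
    refine nc ?_
    rw [← mul_inv_cancel_left (a ^ k) b]
    exact (Commute.self_zpow a k).mul_right (mem_center_iff.1 hk a)
  obtain ⟨m, rfl⟩ : ∃ m, n = m + 3 := ⟨n - 3, by omega⟩
  let d : Fin (m + 3) → Fin (m + 3) → Fin (m + 3) → Fˣ := fun i j =>
    Pi.mulSingle i ζ * Pi.mulSingle j ζ⁻¹
  have d1 : ∀ i j x, d i j x ^ r = 1 := fun i j x => by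
    simp only [d, Pi.mul_apply, Pi.mulSingle_apply]
    split_ifs <;> simp [zr]
  have d2 : ∀ i j, ∏ x, d i j x = 1 := fun i j => by simp [d, Finset.prod_mul_distrib]
  obtain ⟨a, ha⟩ := hd _ (d1 0 1) (d2 0 1)
  obtain ⟨b, hb⟩ := hd _ (d1 1 ⟨2, by omega⟩) (d2 _ _)
  obtain ⟨k, hk⟩ := hc.mem_center (a := a) (b := b) (by rw [pw ha (d1 _ _)]; exact one_mem _)
    (by rw [pw hb (d1 _ _)]; exact one_mem _)
    (by
      rw [show b * a = a * b from hφ (by
        rw [map_mul, map_mul, ha, hb, diagonal_mul_diagonal, diagonal_mul_diagonal]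
        simp only [mul_comm]), inv_mul_cancel]
      exact one_mem _)
    fun h => z1 (by simpa [d, Pi.mulSingle_apply, Fin.ext_iff] using cen ha h 0 ⟨2, by omega⟩)
  have ao : IsOfFinOrder a := isOfFinOrder_iff_pow_eq_one.2 ⟨r, hr.out.pos, pw ha (d1 _ _)⟩
  obtain ⟨i, hi⟩ := ao.mem_powers_iff_mem_zpowers.2 (inv_mem (zpow_mem (mem_zpowers a) k))
  have h4 := cen (g := (a ^ k)⁻¹ * b) (d := d 0 1 ^ i * d 1 ⟨2, by omega⟩) (by
    rw [← hi, map_mul, map_pow, ha, hb, diagonal_pow, diagonal_mul_diagonal]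
    simp) hk
  have h5 := h4 0 ⟨2, by omega⟩
  have h6 := h4 1 ⟨2, by omega⟩
  simp [d, Fin.ext_iff] at h5 h6
  rcases m with _ | m
  · refine h3 ⟨rfl, (Nat.prime_dvd_prime_iff_eq hr.out Nat.prime_three).1 ?_⟩
    rw [← hζ, orderOf_dvd_iff_pow_eq_one]
    rw [h5, inv_inv, eq_inv_iff_mul_eq_one] at h6
    rw [pow_three', h6]
  · have h7 := h4 ⟨2, by omega⟩ ⟨3, by omega⟩
    simp [d, Fin.ext_iff] at h7
    exact z1 h7

variable {F : Type*} [Field F] [Fintype F] {r : ℕ} [hr : Fact r.Prime] {n : ℕ}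

theorem exists_unit_orderOf (h : r ∣ Fintype.card F - 1) : ∃ ζ : Fˣ, orderOf ζ = r := by
  classical
  exact exists_prime_orderOf_dvd_card r (by rwa [Fintype.card_units])

omit [Fintype F] in
theorem det_diag {d : Fin n → Fˣ} (h : ∏ i, d i = 1) : (diagonal fun i => (d i : F)).det = 1 := by
  simpa using congrArg Units.val h

theorem not_cyc_PSL (hn : 3 ≤ n) (h : r ∣ Fintype.card F - 1) :
    ¬ Cyc r (ProjectiveSpecialLinearGroup (Fin n) F) := by
  obtain ⟨ζ, hζ⟩ := exists_unit_orderOf h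
  exact not_cyc_diag (slToMat n F) Subtype.val_injective hζ (fun d _ h => ⟨⟨_, det_diag h⟩, rfl⟩)
    (fun σ h => ⟨⟨σ.permMatrix F, by simp [det_permutation, h]⟩, rfl⟩) hn

theorem not_cyc_PSU {q : ℕ} (hF : Fintype.card F = q ^ 2) (hn : 3 ≤ n) (h : r ∣ q + 1) :
    ¬ Cyc r (PSU n F q) := by
  obtain ⟨ζ, hζ⟩ := exists_unit_orderOf (F := F)
    (h.trans ⟨q - 1, by rw [hF, ← Nat.sq_sub_sq, one_pow]⟩)
  refine not_cyc_diag ((slToMat n F).comp (SU n F q).subtype)
    (Subtype.val_injective.comp Subtype.val_injective) hζ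
    (fun d hd h => ⟨⟨⟨_, det_diag h⟩, fun u v => Finset.sum_congr rfl fun i _ => ?_⟩, rfl⟩)
    (fun σ h => ⟨⟨⟨σ.permMatrix F, by simp [det_permutation, h]⟩, fun u v => ?_⟩, rfl⟩) hn
  · obtain ⟨c, hc⟩ := ‹r ∣ q + 1›
    have h1 : (d i : F) ^ (q + 1) = 1 := by
      rw [hc, pow_mul, ← Units.val_pow_eq_pow_val, hd, Units.val_one, one_pow]
    change (diagonal _ *ᵥ u) i * (diagonal _ *ᵥ v) i ^ q = _
    rw [mulVec_diagonal, mulVec_diagonal, mul_pow]
    linear_combination (u i * v i ^ q) * h1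
  · change ∑ i, (σ.permMatrix F *ᵥ u) i * (σ.permMatrix F *ᵥ v) i ^ q = _
    rw [permMatrix_mulVec, permMatrix_mulVec]
    exact Equiv.sum_comp σ fun i => u i * v i ^ q

theorem card_eq_of_cyc [CharP F r] (h : Cyc r (ProjectiveSpecialLinearGroup (Fin 2) F)) :
    Fintype.card F = r := by
  let x : Multiplicative F →* SpecialLinearGroup (Fin 2) F := MonoidHom.mk'
    (fun t => ⟨!![1, t.toAdd; 0, 1], by simp⟩) fun a b => Subtype.ext (by
      change _ = !![1, a.toAdd; 0, 1] * !![1, b.toAdd; 0, 1]; simp [add_comm])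
  have cen : ∀ t, x t ∈ center _ → t = 1 := fun t ht => by
    obtain ⟨c, -, hc⟩ := Matrix.SpecialLinearGroup.mem_center_iff.1 ht
    exact Multiplicative.toAdd.injective ((congrFun (congrFun hc 0) 1).symm.trans (by simp))
  have pw : ∀ t, x t ^ r ∈ center _ := fun t => by
    rw [← map_pow, show t ^ r = 1 from Multiplicative.toAdd.injective (by simp), map_one]
    exact one_mem _
  have sj : Function.Surjective (ZMod.castHom (dvd_refl r) F) := fun c => by
    obtain ⟨k, hk⟩ := h.mem_center (pw (.ofAdd 1)) (pw (.ofAdd c))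
      (by rw [← map_mul x, ← map_mul x, mul_comm (Multiplicative.ofAdd c), inv_mul_cancel]
          exact one_mem _) fun e => by simpa using cen _ e
    rw [← map_zpow, ← map_inv, ← map_mul] at hk
    exact ⟨k, by simpa [neg_add_eq_zero] using congrArg Multiplicative.toAdd (cen _ hk)⟩
  rw [← Fintype.card_congr (Equiv.ofBijective _ ⟨RingHom.injective _, sj⟩), ZMod.card]

end H90.QT
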