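import Mathlib
import Cfsg.Agent.Base
import Cfsg.Agent.Lib.QT.Rk1

/-! The sporadic groups given by Coxeter-type presentations have non-cyclic Sylow 3-subgroups. -/

set_option autoImplicit false

namespace H90.QT
open Subgroup Cfsg Cfsg.Spor H71.C2

variable {α : Type} [DecidableEq α] {E : List (α × ℕ × α)} {R : List (FreeGroup α)}

theorem s33_pres (u v u' v' : α) (h : u ∈ coxNodes E ∧ v ∈ coxNodes E ∧ u' ∈ coxNodes E ∧
    v' ∈ coxNodes E ∧ coxLabel E u v = 3 ∧ coxLabel E u' v' = 3 ∧ coxLabel E u u' = 2 ∧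
    coxLabel E u v' = 2 ∧ coxLabel E v u' = 2 ∧ coxLabel E v v' = 2)
    (h1 : gn E R u ≠ gn E R v) (h2 : gn E R u' ≠ gn E R v') : S33 (CoxPresented α E R) :=
  let ⟨a, b, c, d, e, f, g, i, j, k⟩ := h
  s33_of_cox (f := MonoidHom.id _) (fun _ _ e => e) (sq_of a) (sq_of b) (cox_rel a b e) h1
    (sq_of c) (sq_of d) (cox_rel c d f) h2 (comm_of a c g) (comm_of a d i) (comm_of b c j)
    (comm_of b d k) ⟨_, rfl⟩ ⟨_, rfl⟩ ⟨_, rfl⟩ ⟨_, rfl⟩

theorem s33_fi22 (h : ¬ IsMulCommutative Fi22) : S33 Fi22 := by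
  have I := @cox_iff _ _ Fi22.edges Fi22.extra
  have i1 := I .a .b .c (by decide)
  have i2 := I .b .c .d (by decide)
  have i3 := I .c .d .e (by decide)
  have i4 := I .d .e .f (by decide)
  have i5 := I .e .f .g (by decide)
  have i6 := I .c .d .h (by decide)
  have i7 := I .d .h .i (by decide)
  have k : gn Fi22.edges Fi22.extra .c ≠ gn _ _ .d := fun e => h (by
    have j2 := i2.2 e
    have j1 := i1.2 j2
    have j3 := (i3.1 e).symm
    have j4 := (i4.1 j3.symm).symm
    have j5 := (i5.1 j4.symm).symm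
    have j6 := (i6.1 e).symm
    have j7 := (i7.1 j6.symm).symm
    refine comm_of_gen_eq (gn _ _ .d) fun x => ?_
    cases x <;> simp only [j1, j2, j3, j4, j5, j6, j7, e])
  exact s33_pres .a .b .d .e (by decide) (fun e => k (i2.1 (i1.1 e))) fun e => k (i3.2 e)

theorem s33_fi23 (h : ¬ IsMulCommutative Fi23) : S33 Fi23 := by
  have I := @cox_iff _ _ Fi23.edges Fi23.extra
  have i1 := I .a .b .c (by decide)
  have i2 := I .b .c .d (by decide)
  have i3 := I .c .d .e (by decide)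
  have i4 := I .d .e .f (by decide)
  have i5 := I .e .f .g (by decide)
  have i6 := I .c .d .h (by decide)
  have i7 := I .d .h .i (by decide)
  have i8 := I .f .g .j (by decide)
  have k : gn Fi23.edges Fi23.extra .c ≠ gn _ _ .d := fun e => h (by
    have j2 := i2.2 e
    have j1 := i1.2 j2
    have j3 := (i3.1 e).symm
    have j4 := (i4.1 j3.symm).symm
    have j5 := (i5.1 j4.symm).symm
    have j6 := (i6.1 e).symm
    have j7 := (i7.1 j6.symm).symm
    have j8 := (i8.1 j5.symm).symm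
    refine comm_of_gen_eq (gn _ _ .d) fun x => ?_
    cases x <;> simp only [j1, j2, j3, j4, j5, j6, j7, j8, e])
  exact s33_pres .a .b .d .e (by decide) (fun e => k (i2.1 (i1.1 e))) fun e => k (i3.2 e)

theorem s33_fi24 (h : ¬ IsMulCommutative Fi24) : S33 Fi24 := by
  have I := @cox_iff _ _ Fi24.edges Fi24.extra
  have i1 := I .a .b .c (by decide)
  have i2 := I .b .c .d (by decide)
  have i3 := I .c .d .e (by decide)
  have i4 := I .d .e .f (by decide)
  have i5 := I .e .f .g (by decide)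
  have i6 := I .c .d .h (by decide)
  have i7 := I .d .h .i (by decide)
  have i8 := I .f .g .j (by decide)
  have i9 := I .k .a .b (by decide)
  have i0 := I .l .k .a (by decide)
  have k : gn Fi24.edges Fi24.extra .c ≠ gn _ _ .d := fun e => h (by
    have j2 := i2.2 e
    have j1 := i1.2 j2
    have j3 := (i3.1 e).symm
    have j4 := (i4.1 j3.symm).symm
    have j5 := (i5.1 j4.symm).symm
    have j6 := (i6.1 e).symm
    have j7 := (i7.1 j6.symm).symm
    have j8 := (i8.1 j5.symm).symm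
    have j9 := i9.2 j1
    have j0 := i0.2 j9
    refine comm_of_gen_eq (gn _ _ .d) fun x => ?_
    cases x <;> simp only [j0, j1, j2, j3, j4, j5, j6, j7, j8, j9, e])
  exact s33_pres .a .b .d .e (by decide) (fun e => k (i2.1 (i1.1 e))) fun e => k (i3.2 e)

theorem pow_four_of_comm {X : Type*} [Group X] {x y : X} (hx : x * x = 1) (hy : y * y = 1)
    (h : x * y = y * x) : (x * y) ^ 4 = 1 := by
  rw [show 4 = 2 * 2 from rfl, pow_mul, Commute.mul_pow h, sq x, sq y, hx, hy, mul_one, one_pow]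

theorem s33_suz (h : ¬ IsMulCommutative Suz) : S33 Suz := by
  have N : ∀ x, x ∈ coxNodes Suz.edges := fun x => by cases x <;> decide
  have S : ∀ x, gn Suz.edges Suz.extra x ^ 2 = 1 := fun x => by rw [sq, sq_of (N x)]
  have C := fun x y => @cox_rel _ _ Suz.edges Suz.extra x y (N x) (N y)
  have h1 : gn Suz.edges Suz.extra .a * ((gn _ _ .c * gn _ _ .d) ^ 4)⁻¹ = 1 :=
    extra_rel (E := Suz.edges) (R := Suz.extra) (r := Suz.a * ((Suz.c * Suz.d) ^ 4)⁻¹)
      (by simp [Suz.extra])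
  have h2 : ((gn Suz.edges Suz.extra .b * gn _ _ .c * gn _ _ .d * gn _ _ .c * gn _ _ .d) ^ 5 *
      gn _ _ .e) ^ 3 = 1 := extra_rel (E := Suz.edges) (R := Suz.extra)
      (r := ((Suz.b * Suz.c * Suz.d * Suz.c * Suz.d) ^ 5 * Suz.e) ^ 3) (by simp [Suz.extra])
  have k : gn Suz.edges Suz.extra .c * gn _ _ .d ≠ gn _ _ .d * gn _ _ .c := fun e => h (by
    rw [pow_four_of_comm (sq_of (N _)) (sq_of (N _)) e, inv_one, mul_one] at h1
    have hb : gn Suz.edges Suz.extra .b = 1 := by
      have h3 := C .a .b (m := 5) rfl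
      rwa [h1, one_mul, show 5 = 2 * 2 + 1 from rfl, pow_succ, pow_mul, S, one_pow, one_mul] at h3
    have T : ∀ x y, coxLabel Suz.edges x y = 3 →
        gn Suz.edges Suz.extra x = 1 → gn Suz.edges Suz.extra y = 1 := fun x y hl e =>
      eq_one_of_two_three (S y) (by simpa only [e, one_mul] using C x y hl)
    have hc := T .b .c rfl hb
    have hf := T .b .f rfl hb
    have hg := T .b .g rfl hb
    have he : gn Suz.edges Suz.extra .e = 1 := eq_one_of_two_three (S _) (by
      simpa only [hb, hc, one_mul, mul_one, sq_of (E := Suz.edges) (R := Suz.extra) (N .d), one_pow]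
        using h2)
    have hd := T .e .d rfl he
    refine comm_of_gen_eq 1 fun x => ?_
    cases x <;> simp only [*])
  refine s33_pres .b .f .d .e (by decide) (fun e => k ?_) fun e => k ?_
  · rw [eq_of_join (N .c) (N .b) (N .f) rfl rfl e]
    exact comm_of (N _) (N _) rfl
  · rw [e]
    exact comm_of (N _) (N _) rfl

theorem s33_on (h : ¬ IsMulCommutative ON) : S33 ON := by
  have X := @extra_rel _ _ ON.edges ON.extra
  have J := @eq_of_join _ _ ON.edges ON.extra
  have M := @comm_of _ _ ON.edges ON.extra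
  have S := @sq_of _ _ ON.edges ON.extra
  let g := gn ON.edges ON.extra
  have h1 : g .a * g .f * (g .g ^ 2)⁻¹ = 1 := @X ((ON.a * ON.f) * (ON.g ^ 2)⁻¹) (by simp [ON.extra])
  have h2 : g .a * g .f * ((g .c * g .d) ^ 4)⁻¹ = 1 :=
    @X ((ON.a * ON.f) * ((ON.c * ON.d) ^ 4)⁻¹) (by simp [ON.extra])
  have h3 : g .c * ((g .d * g .g * g .d * g .g)⁻¹ * g .c * (g .d * g .g * g .d * g .g)) = 1 :=
    @X (ON.c * ((ON.d * ON.g * ON.d * ON.g)⁻¹ * ON.c * (ON.d * ON.g * ON.d * ON.g)))
      (by simp only [ON.extra, List.mem_cons, true_or, or_true])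
  have h4 : (g .b * g .c * g .d * g .g) ^ 5 = 1 :=
    @X ((ON.b * ON.c * ON.d * ON.g) ^ 5) (by simp [ON.extra])
  have k : g .c * g .d ≠ g .d * g .c := fun e => h (by
    rw [pow_four_of_comm (S (by decide)) (S (by decide)) e, inv_one, mul_one] at h2
    rw [h2, one_mul, inv_eq_one, sq] at h1
    have af : g .a = g .f := by
      rw [eq_inv_of_mul_eq_one_left h2, inv_eq_of_mul_eq_one_right (S (by decide))]
    have ba : g .b = g .a := J (by decide) (by decide) (by decide) rfl rfl af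
    have cb : g .c = g .b := J (by decide) (by decide) (by decide) rfl rfl ba
    have ef : g .e = g .f := J (by decide) (by decide) (by decide) rfl rfl af.symm
    have de : g .d = g .e := J (by decide) (by decide) (by decide) rfl rfl ef
    have ff : g .f * g .f = 1 := S (by decide)
    rw [cb, de, ba, ef, af] at h3 h4
    rw [ff, one_mul] at h4
    generalize hx : g .f = x at *
    generalize hy : g .g = y at *
    have xi := inv_eq_of_mul_eq_one_right ff
    have yi := inv_eq_of_mul_eq_one_right h1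
    have h5 : (x * y) ^ 4 = 1 := by
      rw [← h3]
      simp only [mul_inv_rev, xi, yi, pow_succ, pow_zero, one_mul, mul_assoc]
      rw [← mul_assoc x x, ff, one_mul]
    have h6 : x * y = 1 := by rwa [pow_succ, h5, one_mul] at h4
    have h7 : y = x := by rw [eq_inv_of_mul_eq_one_right h6, xi]
    refine comm_of_gen_eq x fun z => ?_
    cases z
    exacts [hy.trans h7, af, ba.trans af, cb.trans (ba.trans af), de.trans ef, ef, hx])
  refine s33_pres .a .b .d .e (by decide) (fun e => k ?_) fun e => k ?_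
  · rw [show g .c = g .b from J (by decide) (by decide) (by decide) rfl rfl e.symm]
    exact M (by decide) (by decide) rfl
  · rw [show g .d = g .e from e]
    exact M (by decide) (by decide) rfl

theorem comm_of_sq {X : Type*} [Group X] {x y : X} (hx : x ^ 2 = 1) (hy : y ^ 2 = 1)
    (h : (x * y) ^ 2 = 1) : Commute x y := by
  rw [sq] at hx hy h
  rw [Commute, SemiconjBy, eq_inv_of_mul_eq_one_left h, mul_inv_rev, inv_eq_of_mul_eq_one_right hx,
    inv_eq_of_mul_eq_one_right hy]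

theorem s33_th (h : ¬ IsMulCommutative Th) : S33 Th := by
  have X := @extra_rel _ _ Th.edges Th.extra
  let g := gn Th.edges Th.extra
  have a2 : g .a ^ 2 = 1 := @X (Th.a ^ 2) (by simp [Th.extra])
  have b2 : g .b ^ 2 = 1 := @X (Th.b ^ 2) (by simp [Th.extra])
  have c2 : g .c ^ 2 = 1 := @X (Th.c ^ 2) (by simp [Th.extra])
  have d2 : g .d ^ 2 = 1 := @X (Th.d ^ 2) (by simp [Th.extra])
  have e2 : g .e ^ 2 = 1 := @X (Th.e ^ 2) (by simp [Th.extra])
  have ab : (g .a * g .b) ^ 3 = 1 := @X ((Th.a * Th.b) ^ 3) (by simp [Th.extra])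
  have bc : (g .b * g .c) ^ 3 = 1 := @X ((Th.b * Th.c) ^ 3) (by simp [Th.extra])
  have de : (g .d * g .e) ^ 3 = 1 := @X ((Th.d * Th.e) ^ 3) (by simp [Th.extra])
  have ae := comm_of_sq a2 e2 (@X ((Th.a * Th.e) ^ 2) (by simp [Th.extra]))
  have bd := comm_of_sq b2 d2 (@X ((Th.b * Th.d) ^ 2) (by simp [Th.extra]))
  have be := comm_of_sq b2 e2 (@X ((Th.b * Th.e) ^ 2) (by simp [Th.extra]))
  have ce := comm_of_sq c2 e2 (@X ((Th.c * Th.e) ^ 2) (by simp [Th.extra]))
  have cd : g .a * ((g .c * g .d) ^ 4)⁻¹ = 1 :=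
    @X (Th.a * ((Th.c * Th.d) ^ 4)⁻¹) (by simp [Th.extra])
  have s7 : g .s ^ 7 = 1 := @X (Th.s ^ 7) (by simp [Th.extra])
  have sd : (g .s * g .d) ^ 2 = 1 := @X ((Th.s * Th.d) ^ 2) (by simp [Th.extra])
  have t3 : g .t ^ 3 = 1 := @X (Th.t ^ 3) (by simp [Th.extra])
  have u2 : g .u ^ 2 * (g .a * g .c)⁻¹ = 1 := @X (Th.u ^ 2 * (Th.a * Th.c)⁻¹) (by simp [Th.extra])
  have ue : ((g .u)⁻¹ * ((g .b)⁻¹ * (g .a * g .c) * g .b)⁻¹ * g .u *
      ((g .b)⁻¹ * (g .a * g .c) * g .b)) * (g .e)⁻¹ = 1 :=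
    @X ((Th.u⁻¹ * (Th.b⁻¹ * (Th.a * Th.c) * Th.b)⁻¹ * Th.u * (Th.b⁻¹ * (Th.a * Th.c) * Th.b)) *
      (Th.e⁻¹)) (by simp only [Th.extra, List.mem_cons, true_or, or_true])
  have tu : ((g .u)⁻¹ * g .t * g .u) * ((g .t)⁻¹)⁻¹ = 1 :=
    @X ((Th.u⁻¹ * Th.t * Th.u) * ((Th.t⁻¹)⁻¹))
      (by simp only [Th.extra, List.mem_cons, true_or, or_true])
  have us : (g .a * g .c) * ((g .u * g .s) ^ 3)⁻¹ = 1 :=
    @X ((Th.a * Th.c) * (((Th.u * Th.s) ^ 3)⁻¹))
      (by simp only [Th.extra, List.mem_cons, true_or, or_true])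
  rw [mul_inv_eq_one] at cd
  have k : g .c * g .d ≠ g .d * g .c := fun e => h (by
    have ha : g .a = 1 := cd.trans (pow_four_of_comm (sq (g .c) ▸ c2) (sq (g .d) ▸ d2) e)
    have hb : g .b = 1 := eq_one_of_two_three b2 (by simpa [ha] using ab)
    have hc : g .c = 1 := eq_one_of_two_three c2 (by simpa [hb] using bc)
    have he : g .e = 1 := by simpa [ha, hb, hc] using ue
    have hd : g .d = 1 := eq_one_of_two_three d2 (by simpa [he] using de)
    have hs : g .s = 1 := by
      rw [hd, mul_one] at sd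
      rwa [show 7 = 2 * 3 + 1 from rfl, pow_succ, pow_mul, sd, one_pow, one_mul] at s7
    have hu : g .u = 1 := eq_one_of_two_three (by simpa [ha, hc] using u2)
      (by simpa [ha, hc, hs] using us)
    have ht : g .t = 1 := eq_one_of_two_three (by simpa [hu, sq] using tu) t3
    refine comm_of_gen_eq 1 fun x => ?_
    cases x <;> assumption)
  have key : ∀ x : Th, x * (g .c * g .d) * x⁻¹ = (g .c * g .d)⁻¹ → Commute x (g .a) := fun x e => by
    have : x * g .a * x⁻¹ = (g .a)⁻¹ := by rw [cd, ← conj_pow, e, inv_pow]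
    rw [inv_eq_of_mul_eq_one_right ((sq (g .a)).symm.trans a2)] at this
    exact mul_inv_eq_iff_eq_mul.1 this
  have ci := inv_eq_of_mul_eq_one_right (sq (g .c) ▸ c2)
  have di := inv_eq_of_mul_eq_one_right (sq (g .d) ▸ d2)
  have ca := key (g .c) (by rw [← mul_assoc, ← sq, c2, one_mul, mul_inv_rev, di])
  have da := key (g .d) (by rw [mul_assoc, mul_inv_cancel_right, mul_inv_rev, ci, di])
  refine s33_of_cox (f := MonoidHom.id _) (fun _ _ e => e) (sq (g .a) ▸ a2) (sq (g .b) ▸ b2) ab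
    (fun e => k ?_) (sq (g .d) ▸ d2) (sq (g .e) ▸ e2) de (fun e => k (e ▸ ce)) da.symm ae bd be
    ⟨_, rfl⟩ ⟨_, rfl⟩ ⟨_, rfl⟩ ⟨_, rfl⟩
  have h1 : Commute (g .b) (g .c) := e ▸ ca.symm
  have h2 : g .b * g .c = 1 := eq_one_of_two_three (by rw [h1.mul_pow, b2, c2, mul_one]) bc
  rw [eq_inv_of_mul_eq_one_right h2]
  exact bd.inv_left

end H90.QT
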