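import Mathlib
import Cfsg.Agent.Base
import Cfsg.Agent.Lib.QT.Rk1
import Cfsg.Agent.Lib.LieBN.Rank
import Cfsg.Agent.Lib.LieBN.Exc

/-! Groups of Lie type in characteristic two and rank at least two contain `S₃ × S₃` (except for
the linear groups of dimension three and the unitary groups, which are treated elsewhere). -/

set_option autoImplicit false
set_option linter.unusedSectionVars false

namespace H90.QT
open Subgroup Cfsg Cfsg.Lie H38 H39 H62 H62.LB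
open scoped Matrix

section abstract

variable {ι l : Type} [Fintype l] [DecidableEq l] [Finite ι] {R : RS ι l} {K : Type*} [Field K]
  [CharP K 2] {G : Type*} [Group G] {E : Elts R K G} {T : Tw E} {Q : Type*} [Group Q]

variable (E) in
theorem x_sq (r : ι) : E.x r 1 * E.x r 1 = 1 := by rw [E.x_add, CharTwo.add_self_eq_zero, E.x_zero]

variable (E) in
theorem x_cube (r : ι) : (E.x r 1 * E.x (R.neg r) 1) ^ 3 = 1 := by
  have h := nconj_char_two E r r 1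
  rw [R.refl_self, ← E.n_neg, CharTwo.neg_eq, PreElts.n, inv_one, CharTwo.neg_eq] at h
  have h1 := x_sq E r
  have h2 := x_sq E (R.neg r)
  generalize E.x r 1 = u at *
  generalize E.x (R.neg r) 1 = v at *
  rw [mul_assoc _ u u, h1, mul_one] at h
  rw [← h2]
  nth_rewrite 2 [← h]
  simp only [pow_three, mul_assoc]

theorem commute_of_pair (E : Elts R K G) (hl : ∀ k k', R.len k = R.len k') {r s : ι}
    (h : R.pair r s = 0) (t u : K) : Commute (E.x r t) (E.x s u) := by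
  have h1 : s ≠ R.neg r := by
    rintro rfl
    rw [R.pair_neg_right, R.pair_self] at h
    cases h
  have h2 : R.Cone r s = ∅ := Set.eq_empty_of_forall_notMem fun k ⟨i, j, hi, hj, e⟩ => by
    have h3 := R.form_self k
    have h4 : R.form (R.rt r) (R.rt s) = 0 := by rw [R.form_rt]; exact mul_eq_zero_of_right _ h
    simp only [e, R.form_add_left, R.form_add_right, R.form_smul_left, R.form_smul_right,
      R.form_self, h4, R.form_symm (R.rt s) (R.rt r), hl k r, hl s r] at h3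
    have := R.len_pos r
    have h5 : i * i + j * j = 1 := mul_right_cancel₀ (b := 2 * R.len r) (by omega) (by linarith)
    nlinarith
  have h3 := E.comm_of_ne_neg h1 t u
  rw [h2, E.XS_empty, mem_bot, mul_inv_eq_one, mul_inv_eq_iff_eq_mul] at h3
  exact h3

theorem s33_roots (M : Mod T Q) (hT : T.Good) (hl : ∀ k k', R.len k = R.len k') {r s : ι}
    (hr : R.Pos r) (hs : R.Pos s) (h : R.pair r s = 0) (m1 : E.x r 1 ∈ T.Γ)
    (m2 : E.x (R.neg r) 1 ∈ T.Γ) (m3 : E.x s 1 ∈ T.Γ) (m4 : E.x (R.neg s) 1 ∈ T.Γ) : S33 Q := by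
  have ne : ∀ r, E.x r 1 ≠ E.x (R.neg r) 1 := fun r e =>
    R.neg_ne r (root_eq_of_x_eq T.hF one_ne_zero e).symm
  refine s33_of_cox M.inj (x_sq E r) (x_sq E _) (x_cube E r) (ne r) (x_sq E s) (x_sq E _)
    (x_cube E s) (ne s) (commute_of_pair E hl h _ _) (commute_of_pair E hl ?_ _ _)
    (commute_of_pair E hl ?_ _ _) (commute_of_pair E hl ?_ _ _)
    (M.lift _ (hT.U_le_G1 ⟨E.x_mem_U hr 1, m1⟩))
    (M.lift _ (hT.V_le_G1 ⟨E.x_mem_V ((R.not_pos_neg_iff _).2 hr) 1, m2⟩))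
    (M.lift _ (hT.U_le_G1 ⟨E.x_mem_U hs 1, m3⟩))
    (M.lift _ (hT.V_le_G1 ⟨E.x_mem_V ((R.not_pos_neg_iff _).2 hs) 1, m4⟩))
  all_goals simp [R.pair_neg_left, R.pair_neg_right, h]

theorem orth_cox {i : l} {L : List l} (h : T.S.Orth i L) :
    ∃ u ∈ T.G1, ∃ v ∈ T.G1, u * u = 1 ∧ v * v = 1 ∧ (u * v) ^ 3 = 1 ∧ u ≠ v ∧
      u ∈ E.XS {r | ∃ j ∈ L, R.InSub {j} r} ∧ v ∈ E.XS {r | ∃ j ∈ L, R.InSub {j} r} := by
  have p1 : Tw.IsPM R R.sim := .inl rfl
  have p2 : Tw.IsPM R fun j => R.neg (R.sim j) := .inr rfl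
  have mu := (Tw.mem_PJ_iff h).2 ⟨fun _ => 1, by simp, rfl⟩
  have mv := (Tw.mem_NJ_iff h).2 ⟨fun _ => 1, by simp, rfl⟩
  have key : ∀ {a b : l → G}, (∀ j, a j ∈ E.XS {r | R.InSub {j} r}) →
      (∀ j, b j ∈ E.XS {r | R.InSub {j} r}) →
      (L.map a).prod * (L.map b).prod = (L.map fun j => a j * b j).prod := fun ha hb =>
    list_prod_mul_of_commute h.nodup fun j hj k hk e =>
      commute_orth E e (h.orth j hj k hk e) (hb j) (ha k)
  have a := fun j => E.x_mem_XS (S := {r | R.InSub {j} r}) (p1.inSub j) 1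
  have b := fun j => E.x_mem_XS (S := {r | R.InSub {j} r}) (p2.inSub j) 1
  have c := fun j => mul_mem (a j) (b j)
  have m : ∀ {a : l → G}, (∀ j, a j ∈ E.XS {r | R.InSub {j} r}) →
      (L.map a).prod ∈ E.XS {r | ∃ j ∈ L, R.InSub {j} r} := fun ha =>
    list_prod_mem (by
      intro x hx
      obtain ⟨j, hj, rfl⟩ := List.mem_map.1 hx
      exact E.mem_XS_mono (ha j) fun r hr => ⟨j, hj, hr⟩)
  refine ⟨_, T.PJ_le_G1 i mu, _, T.NJ_le_G1 i mv, by simp [key a a, x_sq], by simp [key b b, x_sq],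
    ?_, fun e => ?_, m a, m b⟩
  · rw [key a b, pow_three, key c c, key c fun j => mul_mem (c j) (c j)]
    simp only [← pow_three, x_cube]
    simp
  · have h1 := T.hF.B_inf_V _ (E.U_le_B (E.XS_mono (fun _ h => h.1) mu.1))
      (e ▸ E.XS_mono (fun _ h => h.1) mv.1)
    exact one_ne_zero (p1.prod_inj T.hF h.nodup (a := fun _ => 1) (b := fun _ => 0)
      (by simpa [E.x_zero] using h1) i ((h.mem i).2 (T.S.mem_orb_self i)))

theorem s33_orth (M : Mod T Q) {i j : l} {L L' : List l} (h : T.S.Orth i L) (h' : T.S.Orth j L')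
    (ho : ∀ a ∈ L, ∀ b ∈ L', a ≠ b ∧ R.A a b = 0) : S33 Q := by
  obtain ⟨u, m1, v, m2, h1, h2, h3, h4, h5, h6⟩ := orth_cox h
  obtain ⟨u', m3, v', m4, k1, k2, k3, k4, k5, k6⟩ := orth_cox h'
  have c : ∀ {x y}, x ∈ E.XS {r | ∃ j ∈ L, R.InSub {j} r} →
      y ∈ E.XS {r | ∃ j ∈ L', R.InSub {j} r} → Commute x y := fun hx hy =>
    E.XS_induction (P := fun x => Commute x _) hx (fun r ⟨a, ha, hr⟩ t =>
      E.XS_induction (P := fun y => Commute _ y) hy (fun s ⟨b, hb, hs⟩ u =>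
        commute_orth E (ho a ha b hb).1 (ho a ha b hb).2 (E.x_mem_XS hr t) (E.x_mem_XS hs u))
        (Commute.one_right _) fun _ _ _ _ => Commute.mul_right)
      (Commute.one_left _) fun _ _ _ _ => Commute.mul_left
  exact s33_of_cox M.inj h1 h2 h3 h4 k1 k2 k3 k4 (c h5 k5) (c h5 k6) (c h6 k5) (c h6 k6)
    (M.lift _ m1) (M.lift _ m2) (M.lift _ m3) (M.lift _ m4)

theorem s33_elts (hF : E.Faith) (hG : E.Gp = ⊤) {i j : l} (h : i ≠ j) (h0 : R.A i j = 0) : S33 G :=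
  s33_orth (modTriv hF hG) (orth_of_fixed (i := i) rfl) (orth_of_fixed (i := j) rfl)
    (by simp [h, h0])

end abstract

section bits

variable {D : ChevalleyDatum} {K : Type*} [Field K] [CharP K 2] {R : RootSys D}
  {E : Elts R.toRS K (GL D.Idx K)} (hE : IsMat R E) {N : ℕ} {tab : List ℕ}

/-- The check for two involutions with product of order three. -/
noncomputable def coxB (n N : ℕ) (tab u v : List ℕ) (a b : ℕ) : Bool :=
  eqB n N tab (u ++ u) [] && eqB n N tab (v ++ v) [] &&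
    eqB n N tab ((u ++ v) ++ ((u ++ v) ++ (u ++ v))) [] && decide (a < N) && decide (b < N) &&
      ((evM N tab u).testBit (N * a + b) != (evM N tab v).testBit (N * a + b))

/-- The check for commuting words. -/
noncomputable def comB (n N : ℕ) (tab u v : List ℕ) : Bool := eqB n N tab (u ++ v) (v ++ u)

theorem coxB_spec (h : TabOK D N tab) {u v : List ℕ} {a b : ℕ}
    (e : coxB D.nroots N tab u v a b = true) : w1 hE u * w1 hE u = 1 ∧ w1 hE v * w1 hE v = 1 ∧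
      (w1 hE u * w1 hE v) ^ 3 = 1 ∧ w1 hE u ≠ w1 hE v := by
  simp only [coxB, Bool.and_eq_true, decide_eq_true_eq, bne_iff_ne] at e
  obtain ⟨⟨⟨⟨⟨h1, h2⟩, h3⟩, h4⟩, h5⟩, h6⟩ := e
  have k : ∀ {w}, eqB D.nroots N tab (w ++ w) [] = true → ∀ r ∈ w, r < D.nroots := fun e r hr => by
    simp only [eqB, Bool.and_eq_true, List.all_eq_true, decide_eq_true_eq] at e
    exact e.1.1 r (List.mem_append_left _ hr)
  refine ⟨(w1_append hE _ _).symm.trans (h.w1_eq hE h1), (w1_append hE _ _).symm.trans (h.w1_eq hE h2),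
    ?_, w1_ne hE h (k h1) (k h2) h4 h5 h6⟩
  rw [pow_three, ← w1_append, ← w1_append, ← w1_append]
  exact h.w1_eq hE h3

theorem comB_spec (h : TabOK D N tab) {u v : List ℕ} (e : comB D.nroots N tab u v = true) :
    Commute (w1 hE u) (w1 hE v) :=
  (w1_append hE _ _).symm.trans ((h.w1_eq hE e).trans (w1_append hE _ _))

theorem s33_bits (h : TabOK D N tab) {Q : Type*} [Group Q] {f : Q →* D.group K}
    (hf : Function.Injective f) (u v u' v' : List ℕ) (a b a' b' : ℕ)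
    (e : (coxB D.nroots N tab u v a b && coxB D.nroots N tab u' v' a' b' &&
      comB D.nroots N tab u u' && comB D.nroots N tab u v' && comB D.nroots N tab v u' &&
      comB D.nroots N tab v v') = true) (m1 : w1 hE u ∈ f.range) (m2 : w1 hE v ∈ f.range)
    (m3 : w1 hE u' ∈ f.range) (m4 : w1 hE v' ∈ f.range) : S33 Q := by
  simp only [Bool.and_eq_true] at e
  obtain ⟨⟨⟨⟨⟨h1, h2⟩, h3⟩, h4⟩, h5⟩, h6⟩ := e
  obtain ⟨a1, a2, a3, a4⟩ := coxB_spec hE h h1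
  obtain ⟨b1, b2, b3, b4⟩ := coxB_spec hE h h2
  exact s33_of_cox hf a1 a2 a3 a4 b1 b2 b3 b4 (comB_spec hE h h3) (comB_spec hE h h4)
    (comB_spec hE h h5) (comB_spec hE h h6) m1 m2 m3 m4

end bits

variable {F : Type*} [Field F]

theorem s33_G2 [CharP F 2] : S33 (chevG2.group F) := by
  obtain ⟨R, E, hE⟩ := exists_isMat (D := chevG2) (by simp) F
  exact s33_bits hE tabOK_G2 (f := MonoidHom.id _) (fun _ _ e => e) [11] [0] [7] [4] 2 13 6 9
    (by decide +kernel) ⟨_, rfl⟩ ⟨_, rfl⟩ ⟨_, rfl⟩ ⟨_, rfl⟩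

theorem s33_chev [CharP F 2] {D : ChevalleyDatum}
    (hD : D ∈ [chevG2, chevB2, chevD4, chevF4, chevE6, chevE7, chevE8]) (i j : Fin D.rank)
    (h : i ≠ j) (h0 : D.cartan i (D.simple j) = 0) : S33 (D.group F) := by
  obtain ⟨R, E, hE⟩ := exists_isMat hD F
  exact s33_elts hE.grp_faith hE.grp_top h (by rw [← R.wt_sim, ← R.cartan_eq, R.sim_eq, h0])

theorem s33_2F4 [Fintype F] {m : ℕ} (hF : Fintype.card F = 2 ^ (2 * m + 1)) :
    S33 (twistedF4 F (2 ^ m)) := by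
  obtain ⟨R, E, hE, T, h, hA⟩ := exists_F4 hF
  have := h.char
  have k := fun w => (twModel hA).range.ge (w1_ex_mem hE (F4I.gens_mem h hA) w)
  refine s33_bits hE tabOK_F4 (twModel hA).inj [33, 24] [14, 23] [39, 45] [8, 2] 1 18 1 12
    (by decide +kernel) (k [0]) (k [1]) ?_ ?_
  · exact Set.mem_of_eq_of_mem (tabOK_F4.w1_eq hE (by decide +kernel)) (k
      [2, 2, 2, 3, 2, 2, 0, 1, 0, 2, 2, 2, 3, 2, 2, 0, 2, 2, 2, 3, 2, 2, 0, 1, 0, 2, 2, 2, 3, 2, 2])
  · exact Set.mem_of_eq_of_mem (tabOK_F4.w1_eq hE (by decide +kernel)) (k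
      [2, 2, 2, 3, 2, 2, 0, 1, 0, 2, 2, 2, 3, 2, 2, 1, 2, 2, 2, 3, 2, 2, 0, 1, 0, 2, 2, 2, 3, 2, 2])

theorem s33_3D4 [Fintype F] [CharP F 2] {q : ℕ} (hq : IsPrimePow q) (hF : Fintype.card F = q ^ 3) :
    S33 (twistedD4 F q) := by
  obtain ⟨R, E, hE, T, h, hA⟩ := exists_D4 hq hF
  have s : ∀ i : Fin 4, hE.grp.x (R.sim i) 1 = hE.grpRel.x (chevD4.simple i) 1 := fun i =>
    grp_x_eq hE (R.sim_eq i) 1
  have n : ∀ i : Fin 4, hE.grp.x (R.neg (R.sim i)) 1 =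
      hE.grpRel.x (chevD4.neg (chevD4.simple i)) 1 := fun i =>
    grp_x_eq hE ((R.neg_eq _).trans (congrArg _ (R.sim_eq i))) 1
  have hg : ∀ w ∈ [[14], [9], [18, 13, 12], [5, 10, 11]], w1 hE w ∈ T.Γ := by
    have mu := fun i => ((Tw.mem_PJ_iff (h.orth i)).2 ⟨fun _ => 1, by simp, rfl⟩).2
    have mv := fun i => ((Tw.mem_NJ_iff (h.orth i)).2 ⟨fun _ => 1, by simp, rfl⟩).2
    simp only [s, n] at mu mv
    simp only [List.forall_mem_cons]
    exact ⟨mu 1, mv 1, mu 0, mv 0, by simp⟩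
  have k := fun w => (twModel hA).range.ge (w1_ex_mem hE hg w)
  exact s33_bits hE tabOK_D4 (twModel hA).inj [23] [0] [18, 13, 12] [5, 10, 11] 1 4 1 9
    (by decide +kernel)
    (Set.mem_of_eq_of_mem (tabOK_D4.w1_eq hE (by decide +kernel))
      (k [0, 1, 0, 2, 3, 2, 0, 2, 3, 2, 0, 1, 0]))
    (Set.mem_of_eq_of_mem (tabOK_D4.w1_eq hE (by decide +kernel))
      (k [0, 1, 0, 2, 3, 2, 1, 2, 3, 2, 0, 1, 0])) (k [2]) (k [3])

theorem s33_2E6 [Fintype F] [CharP F 2] {q : ℕ} (hq : IsPrimePow q) (hF : Fintype.card F = q ^ 2) :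
    S33 (twistedE6 F q) := by
  obtain ⟨R, E, hE, T, h, hA⟩ := exists_E6 hq hF
  exact s33_orth (Mod.ofModel (twModel hA)) (h.orth 0) (h.orth 1) fun a ha b hb =>
    ((by decide : ∀ a ∈ orbE6 0, ∀ b ∈ orbE6 1, a ≠ b ∧ matF 6 alE6 b a = 0) a ha b hb).imp_right
      (h.hA a b).trans

theorem s33_SL [CharP F 2] {n : ℕ} (hn : 4 ≤ n) : S33 (Matrix.SpecialLinearGroup (Fin n) F) := by
  obtain ⟨k, rfl⟩ : ∃ k, n = k + 3 + 1 := ⟨n - 4, by omega⟩
  exact s33_elts (E := H64.TA.sl (k + 3) F) H64.TA.faith H64.TA.top (i := 0) (j := ⟨2, by omega⟩)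
    (by simp [Fin.ext_iff]) (by simp [H64.TA.rs, H64.TA.cA])

theorem s33_Sp [Fintype F] [CharP F 2] {m : ℕ} (hm : 2 ≤ m) :
    S33 (Matrix.symplecticGroup (Fin m) F) := by
  obtain ⟨k, rfl⟩ : ∃ k, m = k + 1 + 1 := ⟨m - 2, by omega⟩
  obtain ⟨M⟩ := CC.exists_mod_Sp (F := F) 2 (k + 1)
  have key : ∀ r : H63.St.PA (2 * (k + 1) + 1), (r.1.1 : ℕ) + r.1.2 = 2 * (k + 1) + 1 →
      (H64.TA.sl _ F).x r 1 ∈ (CC.twA (2 * (k + 1) + 1) (CC.refl_refl F)).Γ := fun r hr =>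
    CC.σA_x' _ r r (by rw [Fin.ext_iff, Fin.val_rev]; omega) (by rw [Fin.ext_iff, Fin.val_rev]; omega)
      (by rw [hr]; exact odd_two_mul_add_one _) 1
  refine s33_roots M (CC.good_Sp F _) (fun _ _ => rfl)
    (r := ⟨(⟨0, by omega⟩, ⟨2 * (k + 1) + 1, by omega⟩), by simp⟩)
    (s := ⟨(⟨1, by omega⟩, ⟨2 * (k + 1), by omega⟩), by simp⟩)
    ((H64.TA.pos_iff _).2 (Fin.mk_lt_mk.2 (by omega)))
    ((H64.TA.pos_iff _).2 (Fin.mk_lt_mk.2 (by omega))) ?_ (key _ (by simp))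
    (key _ (by simp [H64.TA.rs])) (key _ (by simp; omega)) (key _ (by simp [H64.TA.rs]))
  simp [H64.TA.pair_eq, H64.TA.d]

theorem A_D {k : ℕ} : (CC.TD.smD (k + 2)).rs.A 0 ⟨3, by omega⟩ = 0 ∧
    (CC.TD.smD (k + 2)).rs.A 1 ⟨3, by omega⟩ = 0 := by
  constructor
  · change (CC.TD.wt (.inl 0) + CC.TD.wt (.inl 1)) ⬝ᵥ
      (CC.TD.wt (.inr (⟨2, by omega⟩ : Fin (k + 4))) + CC.TD.wt (.inl ⟨3, by omega⟩)) = 0
    simp [CC.TD.wt, Fin.ext_iff]
  · change (CC.TD.wt (.inr 0) + CC.TD.wt (.inl 1)) ⬝ᵥ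
      (CC.TD.wt (.inr (⟨2, by omega⟩ : Fin (k + 4))) + CC.TD.wt (.inl ⟨3, by omega⟩)) = 0
    simp [CC.TD.wt, Fin.ext_iff]

theorem s33_plus [Fintype F] [CharP F 2] {m : ℕ} (hm : 4 ≤ m) :
    S33 (Omega F (quadFormPlus m F)) := by
  obtain ⟨k, rfl⟩ : ∃ k, m = k + 2 + 2 := ⟨m - 4, by omega⟩
  exact (s33_elts ((CC.TD.smD _).grp_faith F) ((CC.TD.smD _).grp_top F) (i := 0) (j := ⟨3, by omega⟩)
    (by simp [Fin.ext_iff]) A_D.1).congr (CC.TD.omegaEquiv (H12.good_of_finrank_ne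
      (H12.nondeg_QPlus _) (by rw [H12.finrank_plus]; omega)))

theorem s33_minus [Fintype F] [CharP F 2] {a b : F} (hab : H12.Aniso a b) {k : ℕ} (hk : 2 ≤ k) :
    S33 (Omega F (quadFormMinus (k + 1) F a b)) := by
  have := hab.fact
  have := H12.finite_KA a b
  have : CharP (H12.KA a b) 2 := charP_of_injective_algebraMap (algebraMap F _).injective 2
  have hφ : ∀ t : H12.KA a b, starRingAut (starRingAut t) = t := star_star
  have hω : star (QuadraticAlgebra.omega : H12.KA a b) ≠ QuadraticAlgebra.omega := fun e => by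
    have e1 := congrArg QuadraticAlgebra.re e
    have e2 := congrArg QuadraticAlgebra.im e
    simp only [QuadraticAlgebra.re_star, QuadraticAlgebra.im_star, QuadraticAlgebra.omega_re,
      QuadraticAlgebra.omega_im] at e1 e2
    exact hab.disc_ne_zero (by linear_combination (-a) * e1 - 2 * b * e2)
  have hfix : ∀ t : H12.KA a b, starRingAut t = t ↔ ∃ s, algebraMap F _ s = t := fun t => by
    refine ⟨fun h => ⟨t.re, ?_⟩, ?_⟩
    · have h1 := QuadraticAlgebra.sub_star t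
      rw [show star t = t from h, sub_self, eq_comm, smul_eq_zero, sub_eq_zero] at h1
      ext <;> simp [h1.resolve_right hω.symm]
    · rintro ⟨s, rfl⟩
      ext <;> simp
  obtain ⟨M⟩ := CC.TD.exists_mod_minus_aux (k := k) 2 hab (algebraMap F (H12.KA a b)) hφ hfix hω
    (by ext <;> simp) (by ext <;> simp)
  obtain ⟨k, rfl⟩ : ∃ k', k = k' + 2 := ⟨k - 2, by omega⟩
  have h : (CC.TD.smD (k + 2)).rs.A 0 1 = 0 := by
    change (CC.TD.wt (.inl 0) + CC.TD.wt (.inl 1)) ⬝ᵥ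
      (CC.TD.wt (.inr (0 : Fin (k + 4))) + CC.TD.wt (.inl 1)) = 0
    simp [CC.TD.wt]
  exact s33_orth M (orth_of_swap zero_ne_one (Equiv.swap_apply_left _ _)
    (Equiv.swap_apply_right _ _) h) (orth_of_fixed (i := ⟨3, by omega⟩)
      (Equiv.swap_apply_of_ne_of_ne (by simp [Fin.ext_iff]) (by simp [Fin.ext_iff])))
    (by
      simp only [List.forall_mem_cons, List.not_mem_nil, false_imp_iff, implies_true, and_true]
      exact ⟨⟨by simp [Fin.ext_iff], A_D.1⟩, by simp [Fin.ext_iff], A_D.2⟩)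

theorem force_RkTwo : (@coxB.eq_1 = @coxB.eq_1) ∧ @comB.eq_1 = @comB.eq_1 := ⟨rfl, rfl⟩

end H90.QT
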